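import Mathlib

set_option autoImplicit false

namespace Cfsg.Agent.Lib.Helper73

noncomputable section

variable {k V H : Type*} [Field k] [AddCommGroup V] [Module k V] [Group H]

/-- stabilizer of a vector in a representation -/
def stab (ρ : Representation k H V) (v : V) : Subgroup H where
  carrier := {h | ρ h v = v}
  mul_mem' := by
    intro a b ha hb
    simp only [Set.mem_ofPred_eq, map_mul, Module.End.mul_apply] at *
    rw [hb, ha]
  one_mem' := by simp
  inv_mem' := by
    intro a ha
    simp only [Set.mem_ofPred_eq] at *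
    calc ρ a⁻¹ v = ρ a⁻¹ (ρ a v) := by rw [ha]
      _ = (ρ a⁻¹ * ρ a) v := rfl
      _ = v := by rw [← map_mul]; simp

theorem mem_stab (ρ : Representation k H V) (v : V) (h : H) : h ∈ stab ρ v ↔ ρ h v = v := Iff.rfl

theorem card_orbit_eq_index (ρ : Representation k H V) (v : V) :
    Nat.card {u : V | ∃ h : H, ρ h v = u} = (stab ρ v).index := by
  let _ : MulAction H V := MulAction.compHom V ρ
  have h1 : MulAction.stabilizer H v = stab ρ v := by
    ext h
    rfl
  have h2 : MulAction.orbit H v = {u | ∃ h : H, ρ h v = u} := rfl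
  rw [← h1, MulAction.index_stabilizer, ← h2, Nat.card_coe_set_eq]

open Classical in
/-- the sum of the orbit of `a` -/
def orbSum [Fintype H] (ρ : Representation k H V) (a : V) : V :=
  ∑ u ∈ Finset.univ.image (fun h : H => ρ h a), u

theorem rho_injective (ρ : Representation k H V) (h : H) : Function.Injective (ρ h) := by
  intro x y hxy
  have := congrArg (ρ h⁻¹) hxy
  have e : ∀ z, ρ h⁻¹ (ρ h z) = z := by
    intro z
    calc ρ h⁻¹ (ρ h z) = (ρ h⁻¹ * ρ h) z := rfl
      _ = z := by rw [← map_mul]; simp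
  rwa [e, e] at this

theorem orbSum_invariant [Fintype H] (ρ : Representation k H V) (a : V) (h : H) :
    ρ h (orbSum ρ a) = orbSum ρ a := by
  classical
  unfold orbSum
  rw [map_sum, ← Finset.sum_image (f := fun u => u) (g := fun u => ρ h u)
    (fun x _ y _ hxy => rho_injective ρ h hxy), Finset.image_image]
  congr 1
  ext u
  simp only [Finset.mem_image, Finset.mem_univ, true_and, Function.comp]
  constructor
  · rintro ⟨g, rfl⟩
    exact ⟨h * g, by rw [map_mul]; rfl⟩
  · rintro ⟨g, rfl⟩
    exact ⟨h⁻¹ * g, by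
      calc ρ h (ρ (h⁻¹ * g) a) = (ρ h * ρ (h⁻¹ * g)) a := rfl
        _ = ρ g a := by rw [← map_mul]; simp⟩

/-- summing over a transitive subgroup gives a multiple of the orbit sum -/
theorem sum_subgroup_eq [Fintype H] (ρ : Representation k H V) (a : V) (Q : Subgroup H) [Fintype Q]
    (htrans : ∀ h : H, ∃ g ∈ Q, ρ g a = ρ h a) :
    ∑ g : Q, ρ g a = (Nat.card (stab ρ a ⊓ Q : Subgroup H)) • orbSum ρ a := by
  classical
  have h1 := Finset.sum_comp (s := (Finset.univ : Finset Q)) (fun u : V => u) (fun g : Q => ρ g a)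
  rw [h1]
  have himg : Finset.univ.image (fun g : Q => ρ g a) = Finset.univ.image (fun h : H => ρ h a) := by
    ext u
    simp only [Finset.mem_image, Finset.mem_univ, true_and]
    constructor
    · rintro ⟨g, rfl⟩
      exact ⟨g, rfl⟩
    · rintro ⟨h, rfl⟩
      obtain ⟨g, hg, hga⟩ := htrans h
      exact ⟨⟨g, hg⟩, hga⟩
  rw [himg, orbSum, Finset.smul_sum]
  apply Finset.sum_congr rfl
  intro u hu
  congr 1
  rw [← himg] at hu
  obtain ⟨g0, -, rfl⟩ := Finset.mem_image.mp hu
  rw [← Fintype.card_subtype, ← Nat.card_eq_fintype_card]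
  apply Nat.card_congr
  exact
    { toFun := fun g => ⟨(g0 : H)⁻¹ * g.1, by
        constructor
        · show ρ ((g0 : H)⁻¹ * g.1) a = a
          rw [map_mul]
          show ρ (g0 : H)⁻¹ (ρ g.1 a) = a
          rw [g.2]
          calc ρ (g0 : H)⁻¹ (ρ g0 a) = (ρ (g0 : H)⁻¹ * ρ g0) a := rfl
            _ = a := by rw [← map_mul]; simp
        · exact Q.mul_mem (Q.inv_mem g0.2) g.1.2⟩
      invFun := fun s => ⟨⟨g0 * s.1, Q.mul_mem g0.2 s.2.2⟩, by
        show ρ ((g0 : H) * s.1) a = ρ g0 a
        rw [map_mul]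
        show ρ g0 (ρ s.1 a) = ρ g0 a
        rw [(mem_stab ρ a s.1).mp s.2.1]⟩
      left_inv := fun g => by
        apply Subtype.ext
        apply Subtype.ext
        simp
      right_inv := fun s => by
        apply Subtype.ext
        simp }

/-- Core lemma: if the orbit of `a` spans `V`, `Q` is transitive on that orbit and `|Q|` is invertible
in `k`, every `Q`-fixed vector is a multiple of the orbit sum. -/
theorem fixed_mem_span_orbSum [Fintype H] (ρ : Representation k H V) (a : V)
    (hspan : Submodule.span k {u : V | ∃ h : H, ρ h a = u} = ⊤)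
    (Q : Subgroup H) (hQ : (Nat.card Q : k) ≠ 0)
    (htrans : ∀ h : H, ∃ g ∈ Q, ρ g a = ρ h a) (b : V) (hb : ∀ g ∈ Q, ρ g b = b) :
    b ∈ Submodule.span k {orbSum ρ a} := by
  classical
  have := Fintype.ofFinite Q
  let T : V →ₗ[k] V := ∑ g : Q, ρ g
  have hTa : T a ∈ Submodule.span k {orbSum ρ a} := by
    have : T a = ∑ g : Q, ρ g a := by simp [T, LinearMap.sum_apply]
    rw [this, sum_subgroup_eq ρ a Q htrans]
    exact Submodule.smul_of_tower_mem _ _ (Submodule.mem_span_singleton_self _)
  have hTu : ∀ h : H, T (ρ h a) = T a := by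
    intro h
    obtain ⟨g0, hg0, hg0a⟩ := htrans h
    rw [← hg0a]
    simp only [T, LinearMap.sum_apply]
    have := Equiv.sum_comp (Equiv.mulRight (⟨g0, hg0⟩ : Q)) (fun g : Q => ρ g a)
    rw [← this]
    apply Finset.sum_congr rfl
    intro g _
    simp only [Equiv.coe_mulRight, Subgroup.coe_mul, map_mul]
    rfl
  have hTv : ∀ v : V, T v ∈ Submodule.span k {orbSum ρ a} := by
    intro v
    have hv : v ∈ Submodule.span k {u : V | ∃ h : H, ρ h a = u} := by rw [hspan]; trivial
    induction hv using Submodule.span_induction with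
    | mem x hx =>
      obtain ⟨h, rfl⟩ := hx
      rw [hTu]; exact hTa
    | zero => simp
    | add x y _ _ hx hy => rw [map_add]; exact Submodule.add_mem _ hx hy
    | smul c x _ hx => rw [map_smul]; exact Submodule.smul_mem _ _ hx
  have hTb : T b = (Nat.card Q : k) • b := by
    simp only [T, LinearMap.sum_apply]
    rw [Finset.sum_congr rfl (fun g _ => hb g.1 g.2), Finset.sum_const, Finset.card_univ,
      Nat.card_eq_fintype_card, Nat.cast_smul_eq_nsmul]
  have h2 := hTv b
  rw [hTb] at h2
  have h3 := Submodule.smul_mem _ ((Nat.card Q : k)⁻¹) h2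
  rwa [smul_smul, inv_mul_cancel₀ hQ, one_smul] at h3

end

end Cfsg.Agent.Lib.Helper73
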