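import Mathlib
import Cfsg.Agent.Lib.Helper73.ClassCount
import Cfsg.Agent.Lib.Helper73.PiParts

set_option autoImplicit false

namespace Cfsg.Agent.Lib.Helper73

open Classical

variable {G : Type*} [Group G] [Fintype G]

/-- the order of `C_N(g)` -/
noncomputable def cN (N : Subgroup G) (g : G) : ℕ :=
  (Finset.univ.filter (fun n : G => n ∈ N ∧ n * g = g * n)).card

theorem card_subgroupOf_centralizer (N : Subgroup G) (g : G) :
    Nat.card (N.subgroupOf (Subgroup.centralizer ({g} : Set G))) = cN N g := by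
  rw [cN, ← Fintype.card_subtype, ← Nat.card_eq_fintype_card]
  apply Nat.card_congr
  exact
    { toFun := fun c => ⟨c.1.1, c.2, Subgroup.mem_centralizer_singleton_iff.mp c.1.2⟩
      invFun := fun n => ⟨⟨n.1, Subgroup.mem_centralizer_singleton_iff.mpr n.2.2⟩, n.2.1⟩
      left_inv := fun c => rfl
      right_inv := fun n => rfl }

theorem card_centralizer_le (N : Subgroup G) [N.Normal] (g : G) :
    Nat.card (Subgroup.centralizer ({g} : Set G)) ≤
      cN N g * Nat.card (Subgroup.centralizer ({(g : G ⧸ N)} : Set (G ⧸ N))) := by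
  set C := Subgroup.centralizer ({g} : Set G) with hC
  have h1 := (N.subgroupOf C).index_mul_card
  rw [card_subgroupOf_centralizer] at h1
  have h2 : (N.subgroupOf C).index = Nat.card (C.map (QuotientGroup.mk' N)) := by
    have := Subgroup.relIndex_ker (K := C) (QuotientGroup.mk' N)
    rw [QuotientGroup.ker_mk'] at this
    exact this
  have h3 : C.map (QuotientGroup.mk' N) ≤ Subgroup.centralizer ({(g : G ⧸ N)} : Set (G ⧸ N)) := by
    rintro _ ⟨c, hc, rfl⟩
    rw [Subgroup.mem_centralizer_singleton_iff]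
    have := Subgroup.mem_centralizer_singleton_iff.mp hc
    show ((c * g : G) : G ⧸ N) = ((g * c : G) : G ⧸ N)
    rw [this]
  rw [← h1, h2, mul_comm]
  exact Nat.mul_le_mul_left _ (Subgroup.card_le_of_le h3)

theorem card_coset_centralizer_le (N : Subgroup G) [N.Normal] (m : G) (y : G ⧸ N) :
    (Finset.univ.filter (fun h : G => (h : G ⧸ N) = y ∧ h * m = m * h)).card ≤ cN N m := by
  by_cases hne : (Finset.univ.filter (fun h : G => (h : G ⧸ N) = y ∧ h * m = m * h)).Nonempty
  · obtain ⟨h0, hh0⟩ := hne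
    rw [Finset.mem_filter] at hh0
    apply Finset.card_le_card_of_injOn (fun h => h0⁻¹ * h)
    · intro h hh
      have hh' := (Finset.mem_filter.mp hh).2
      simp only [Finset.coe_filter, Finset.mem_univ, true_and, Set.mem_ofPred_eq]
      constructor
      · rw [← QuotientGroup.eq, hh0.2.1, hh'.1]
      · calc h0⁻¹ * h * m = h0⁻¹ * (h * m) := by group
          _ = h0⁻¹ * (m * h) := by rw [hh'.2]
          _ = h0⁻¹ * (m * h0) * h0⁻¹ * h := by group
          _ = h0⁻¹ * (h0 * m) * h0⁻¹ * h := by rw [hh0.2.2]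
          _ = m * (h0⁻¹ * h) := by group
    · intro h _ h' _ heq
      exact mul_left_cancel heq
  · rw [Finset.not_nonempty_iff_eq_empty] at hne
    rw [hne]; simp

/-- key injection -/
theorem card_B_le_card_A (N : Subgroup G) [N.Normal] (y : G ⧸ N) (a k k' : ℕ)
    (H1 : ∀ g : G, (g ^ k) ^ a = 1) (H2 : ∀ g : G, g ^ a = 1 → g ^ k = g)
    (H3 : ∀ g : G, g ^ k * g ^ k' = g) (H4 : ∀ g : G, (g ^ k') ^ k = 1) :
    (Finset.univ.filter (fun z : G × G => ((z.1 : G ⧸ N) = y ∧ z.1 ^ a = 1) ∧
        (z.2 ∈ N ∧ z.2 * z.1 = z.1 * z.2))).card ≤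
    (Finset.univ.filter (fun z : G × G => (z.2 ∈ N ∧ z.2 ^ a = 1) ∧
        ((z.1 : G ⧸ N) = y ∧ z.1 * z.2 = z.2 * z.1))).card := by
  apply Finset.card_le_card_of_injOn (fun z => (z.1 * z.2 ^ k', z.2 ^ k))
  · rintro ⟨g, n⟩ hz
    obtain ⟨⟨hgy, hga⟩, hnN, hcomm⟩ := (Finset.mem_filter.mp hz).2
    simp only at hgy hga hnN hcomm
    have hc : Commute n g := hcomm
    simp only [Finset.coe_filter, Finset.mem_univ, true_and, Set.mem_ofPred_eq]
    refine ⟨⟨N.pow_mem hnN k, H1 n⟩, ?_, ?_⟩
    · rw [QuotientGroup.mk_mul_of_mem _ (N.pow_mem hnN k')]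
      exact hgy
    · have h1 : Commute (g * n ^ k') (n ^ k) :=
        Commute.mul_left (hc.symm.pow_right k) ((Commute.refl n).pow_pow k' k)
      exact h1
  · rintro ⟨g, n⟩ hz ⟨g', n'⟩ hz' heq
    obtain ⟨⟨-, hga⟩, -, hcomm⟩ := (Finset.mem_filter.mp hz).2
    obtain ⟨⟨-, hga'⟩, -, hcomm'⟩ := (Finset.mem_filter.mp hz').2
    simp only at hga hcomm hga' hcomm'
    simp only [Prod.mk.injEq] at heq
    obtain ⟨e1, e2⟩ := heq
    have hc : Commute g (n ^ k') := (Commute.pow_right (show Commute g n from hcomm.symm) k')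
    have hc' : Commute g' (n' ^ k') := (Commute.pow_right (show Commute g' n' from hcomm'.symm) k')
    have hg : g = g' := by
      have h1 : (g * n ^ k') ^ k = g := by rw [hc.mul_pow, H2 g hga, H4, mul_one]
      have h2 : (g' * n' ^ k') ^ k = g' := by rw [hc'.mul_pow, H2 g' hga', H4, mul_one]
      rw [← h1, ← h2, e1]
    subst hg
    have hn : n ^ k' = n' ^ k' := mul_left_cancel e1
    have : n = n' := by rw [← H3 n, ← H3 n', e2, hn]
    rw [this]

theorem card_centralizer_subgroup (N : Subgroup G) (m : N) :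
    Nat.card (Subgroup.centralizer ({m} : Set N)) = cN N (m : G) := by
  rw [cN, ← Fintype.card_subtype, ← Nat.card_eq_fintype_card]
  apply Nat.card_congr
  exact
    { toFun := fun c => ⟨c.1.1, c.1.2, by
        have := Subgroup.mem_centralizer_singleton_iff.mp c.2
        exact congrArg Subtype.val this⟩
      invFun := fun n => ⟨⟨n.1, n.2.1⟩, Subgroup.mem_centralizer_singleton_iff.mpr
        (Subtype.ext n.2.2)⟩
      left_inv := fun c => rfl
      right_inv := fun n => rfl }

theorem sum_J_le (N : Subgroup G) [N.Normal] (y : G ⧸ N) (a k k' : ℕ)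
    (H1 : ∀ g : G, (g ^ k) ^ a = 1) (H2 : ∀ g : G, g ^ a = 1 → g ^ k = g)
    (H3 : ∀ g : G, g ^ k * g ^ k' = g) (H4 : ∀ g : G, (g ^ k') ^ k = 1) :
    ∑ g : G, (if ((g : G ⧸ N) = y ∧ g ^ a = 1) then cN N g else 0) ≤
      ∑ m : G, (if (m ∈ N ∧ m ^ a = 1) then cN N m else 0) := by
  have hB : ∑ g : G, (if ((g : G ⧸ N) = y ∧ g ^ a = 1) then cN N g else 0) =
      (Finset.univ.filter (fun z : G × G => ((z.1 : G ⧸ N) = y ∧ z.1 ^ a = 1) ∧
        (z.2 ∈ N ∧ z.2 * z.1 = z.1 * z.2))).card := by
    rw [Finset.card_filter, Fintype.sum_prod_type]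
    apply Finset.sum_congr rfl
    intro g _
    by_cases hg : ((g : G ⧸ N) = y ∧ g ^ a = 1)
    · simp only [hg, and_self, if_true, true_and]
      rw [cN, Finset.card_filter]
    · simp only [hg, if_false, false_and, Finset.sum_const_zero]
  have hA : (Finset.univ.filter (fun z : G × G => (z.2 ∈ N ∧ z.2 ^ a = 1) ∧
        ((z.1 : G ⧸ N) = y ∧ z.1 * z.2 = z.2 * z.1))).card =
      ∑ m : G, (if (m ∈ N ∧ m ^ a = 1) then
        (Finset.univ.filter (fun h : G => (h : G ⧸ N) = y ∧ h * m = m * h)).card else 0) := by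
    rw [Finset.card_filter, Fintype.sum_prod_type_right]
    apply Finset.sum_congr rfl
    intro m _
    by_cases hm : (m ∈ N ∧ m ^ a = 1)
    · simp only [hm, and_self, if_true, true_and]
      rw [Finset.card_filter]
    · simp only [hm, if_false, false_and, Finset.sum_const_zero]
  rw [hB]
  refine (card_B_le_card_A N y a k k' H1 H2 H3 H4).trans ?_
  rw [hA]
  apply Finset.sum_le_sum
  intro m _
  split_ifs
  · exact card_coset_centralizer_le N m y
  · exact le_rfl

theorem pi_classes_le (N : Subgroup G) [N.Normal] (a k k' : ℕ)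
    (H1 : ∀ g : G, (g ^ k) ^ a = 1) (H2 : ∀ g : G, g ^ a = 1 → g ^ k = g)
    (H3 : ∀ g : G, g ^ k * g ^ k' = g) (H4 : ∀ g : G, (g ^ k') ^ k = 1) :
    Nat.card {C : ConjClasses G // ∀ g : G, ConjClasses.mk g = C → g ^ a = 1} ≤
      Nat.card {C : ConjClasses N // ∀ g : N, ConjClasses.mk g = C → g ^ a = 1} *
      Nat.card {C : ConjClasses (G ⧸ N) // ∀ g : G ⧸ N, ConjClasses.mk g = C → g ^ a = 1} := by
  have hconj : ∀ (X : Type _) [Group X] (g x : X), x ^ a = 1 → (g * x * g⁻¹) ^ a = 1 := by
    intro X _ g x hx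
    rw [conj_pow, hx]; simp
  have TG := sum_card_centralizer_eq (X := G) (fun g => g ^ a = 1) (hconj G)
  have TN := sum_card_centralizer_eq (X := N) (fun g => g ^ a = 1) (hconj N)
  have TQ := sum_card_centralizer_eq (X := G ⧸ N) (fun g => g ^ a = 1) (hconj (G ⧸ N))
  set kG := Nat.card {C : ConjClasses G // ∀ g : G, ConjClasses.mk g = C → g ^ a = 1}
  set kN := Nat.card {C : ConjClasses N // ∀ g : N, ConjClasses.mk g = C → g ^ a = 1}
  set kQ := Nat.card {C : ConjClasses (G ⧸ N) // ∀ g : G ⧸ N, ConjClasses.mk g = C → g ^ a = 1}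
  -- S_N
  have hSN : ∑ m : G, (if (m ∈ N ∧ m ^ a = 1) then cN N m else 0) = Nat.card N * kN := by
    rw [← TN]
    have h1 : ∑ m : G, (if (m ∈ N ∧ m ^ a = 1) then cN N m else 0) =
        ∑ m ∈ Finset.univ.filter (fun m : G => m ∈ N), (if m ^ a = 1 then cN N m else 0) := by
      rw [Finset.sum_filter]
      apply Finset.sum_congr rfl
      intro m _
      by_cases hm : m ∈ N <;> simp [hm]
    rw [h1, Finset.sum_subtype (p := fun m : G => m ∈ N) _ (fun x => by simp)]
    apply Finset.sum_congr rfl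
    intro m _
    have h2 : ((m : G) ^ a = 1) ↔ (m ^ a = 1) := by
      rw [← Subgroup.coe_pow, OneMemClass.coe_eq_one]
    by_cases hm : m ^ a = 1
    · rw [if_pos hm, if_pos (h2.mpr hm), card_centralizer_subgroup]
    · rw [if_neg hm, if_neg (fun h => hm (h2.mp h))]
  have hchain : Nat.card G * kG ≤ (Nat.card N * kN) * (Nat.card (G ⧸ N) * kQ) := by
    rw [← TG, ← TQ, ← hSN]
    calc ∑ g : G, (if g ^ a = 1 then Nat.card (Subgroup.centralizer ({g} : Set G)) else 0)
        ≤ ∑ g : G, (if g ^ a = 1 then cN N g *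
            Nat.card (Subgroup.centralizer ({(g : G ⧸ N)} : Set (G ⧸ N))) else 0) := by
          apply Finset.sum_le_sum
          intro g _
          split_ifs
          · exact card_centralizer_le N g
          · exact le_rfl
      _ = ∑ y : G ⧸ N, ∑ g ∈ Finset.univ.filter (fun g : G => (g : G ⧸ N) = y),
            (if g ^ a = 1 then cN N g *
              Nat.card (Subgroup.centralizer ({(g : G ⧸ N)} : Set (G ⧸ N))) else 0) := by
          rw [Finset.sum_fiberwise]
      _ = ∑ y : G ⧸ N, (∑ g : G, (if ((g : G ⧸ N) = y ∧ g ^ a = 1) then cN N g else 0)) *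
            Nat.card (Subgroup.centralizer ({y} : Set (G ⧸ N))) := by
          apply Finset.sum_congr rfl
          intro y _
          rw [Finset.sum_filter, Finset.sum_mul]
          apply Finset.sum_congr rfl
          intro g _
          by_cases hy : (g : G ⧸ N) = y
          · subst hy
            by_cases hg : g ^ a = 1 <;> simp [hg]
          · simp [hy]
      _ ≤ ∑ y : G ⧸ N, (∑ m : G, (if (m ∈ N ∧ m ^ a = 1) then cN N m else 0)) *
            (if y ^ a = 1 then Nat.card (Subgroup.centralizer ({y} : Set (G ⧸ N))) else 0) := by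
          apply Finset.sum_le_sum
          intro y _
          by_cases hy : y ^ a = 1
          · rw [if_pos hy]
            exact Nat.mul_le_mul_right _ (sum_J_le N y a k k' H1 H2 H3 H4)
          · rw [if_neg hy, mul_zero]
            have : ∑ g : G, (if ((g : G ⧸ N) = y ∧ g ^ a = 1) then cN N g else 0) = 0 := by
              apply Finset.sum_eq_zero
              intro g _
              rw [if_neg]
              rintro ⟨rfl, hg⟩
              apply hy
              rw [← QuotientGroup.mk_pow, hg]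
              rfl
            rw [this, zero_mul]
      _ = _ := by
          rw [← Finset.mul_sum]
          congr 1
          apply Finset.sum_congr rfl
          intro y _
          by_cases hy : y ^ a = 1 <;> simp [hy]
  have hcard : Nat.card G = Nat.card N * Nat.card (G ⧸ N) := by
    rw [← N.card_mul_index]; rfl
  have hpos : 0 < Nat.card G := Nat.card_pos
  have h2 : Nat.card G * kG ≤ Nat.card G * (kN * kQ) := by
    calc Nat.card G * kG ≤ (Nat.card N * kN) * (Nat.card (G ⧸ N) * kQ) := hchain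
      _ = Nat.card G * (kN * kQ) := by rw [hcard]; ring
  exact Nat.le_of_mul_le_mul_left h2 hpos

end Cfsg.Agent.Lib.Helper73
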